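-- Team project ISO (S3044 + S3045, helper22): package PkgDict2 (helper79).
import Mathlib
import Cfsg.Agent.Lib.Helper22.Iso.Defs

set_option autoImplicit false

namespace Cfsg.Agent.Lib.Helper79.Iso

open Cfsg.Agent.Lib.Helper22.Iso
open scoped commutatorElement

universe u

section tools

variable {G : Type u} [Group G] {p : ℕ} (Y : Subgroup G) [(Cfsg.pCore p ↥Y).Normal]

/-- Membership in `pull`. -/
theorem mem_pull_iff (K : Subgroup (↥Y ⧸ Cfsg.pCore p ↥Y)) (g : G) :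
    g ∈ pull p Y K ↔ ∃ h : g ∈ Y, QuotientGroup.mk' (Cfsg.pCore p ↥Y) ⟨g, h⟩ ∈ K := by
  constructor
  · rintro ⟨y, hy, rfl⟩
    exact ⟨y.2, hy⟩
  · rintro ⟨h, hk⟩
    exact ⟨⟨g, h⟩, hk, rfl⟩

/-- Membership in `push`. -/
theorem mem_push_iff (W : Subgroup G) (x : ↥Y ⧸ Cfsg.pCore p ↥Y) :
    x ∈ push p Y W ↔ ∃ y : ↥Y, (y : G) ∈ W ∧ QuotientGroup.mk' (Cfsg.pCore p ↥Y) y = x := by
  constructor
  · rintro ⟨y, hy, rfl⟩
    exact ⟨y, hy, rfl⟩
  · rintro ⟨y, hy, rfl⟩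
    exact ⟨y, hy, rfl⟩

/-- The class of an element of `Y` lies in `K` iff the element lies in `pull K`. -/
theorem mk_mem_iff_mem_pull (K : Subgroup (↥Y ⧸ Cfsg.pCore p ↥Y)) (y : ↥Y) :
    QuotientGroup.mk' (Cfsg.pCore p ↥Y) y ∈ K ↔ (y : G) ∈ pull p Y K := by
  rw [mem_pull_iff]
  constructor
  · intro h; exact ⟨y.2, h⟩
  · rintro ⟨_, h⟩; exact h

variable {Y} [Y.Normal]

/-- `pull K` is stable under conjugation by `g` when `K` is stable under `σ g`. -/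
theorem conj_mem_pull {σ : G →* MulAut (↥Y ⧸ Cfsg.pCore p ↥Y)} (hσ : Compat p Y σ)
    (K : Subgroup (↥Y ⧸ Cfsg.pCore p ↥Y)) (g : G) (hg : ∀ x ∈ K, σ g x ∈ K) (n : G)
    (hn : n ∈ pull p Y K) : g * n * g⁻¹ ∈ pull p Y K := by
  rw [mem_pull_iff] at hn ⊢
  obtain ⟨h, hk⟩ := hn
  refine ⟨(inferInstance : Y.Normal).conj_mem n h g, ?_⟩
  have h1 := hg _ hk
  rw [hσ] at h1
  exact h1

/-- An element of `Y` acts on `Ȳ` as the inner automorphism of its class. -/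
theorem sigma_eq_conj {σ : G →* MulAut (↥Y ⧸ Cfsg.pCore p ↥Y)} (hσ : Compat p Y σ)
    (y : ↥Y) (x : ↥Y ⧸ Cfsg.pCore p ↥Y) :
    σ (y : G) x = QuotientGroup.mk' (Cfsg.pCore p ↥Y) y * x *
      (QuotientGroup.mk' (Cfsg.pCore p ↥Y) y)⁻¹ := by
  obtain ⟨w, rfl⟩ := QuotientGroup.mk'_surjective (Cfsg.pCore p ↥Y) x
  rw [hσ, ← map_inv, ← map_mul, ← map_mul]
  congr 1

/-- A normal subgroup of `Ȳ` is stable under the action of `Y`. -/
theorem sigma_mem_of_normal {σ : G →* MulAut (↥Y ⧸ Cfsg.pCore p ↥Y)} (hσ : Compat p Y σ)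
    (K : Subgroup (↥Y ⧸ Cfsg.pCore p ↥Y)) (hK : K.Normal) (y : G) (hy : y ∈ Y)
    (x : ↥Y ⧸ Cfsg.pCore p ↥Y) (hx : x ∈ K) : σ y x ∈ K := by
  have h1 := sigma_eq_conj hσ ⟨y, hy⟩ x
  rw [show ((⟨y, hy⟩ : ↥Y) : G) = y from rfl] at h1
  rw [h1]
  exact hK.conj_mem x hx _

end tools

/-- [Dict2] -/
theorem pkgDict2 : PkgDict2.{u} := by
  intro G _ _ p _ S L Y T Q _ _ σ hσ hK
  refine ⟨?_, ?_⟩
  · -- key
    intro N hN hinv hne
    -- `N` is stable under all of `G`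
    have hall : ∀ g : G, ∀ x ∈ N, σ g x ∈ N := by
      intro g
      have hg : g ∈ ((Y ⊔ L : Subgroup G) : Set G) := by rw [hK.YL]; trivial
      rw [Subgroup.normal_mul] at hg
      obtain ⟨y, hy, l, hl, rfl⟩ := Set.mem_mul.mp hg
      intro x hx
      rw [map_mul, MulAut.mul_apply]
      exact sigma_mem_of_normal hσ N hN y hy _ (hinv l hl x hx)
    have hnorm : (pull p Y N).Normal :=
      ⟨fun n hn g => conj_mem_pull hσ N g (hall g) n hn⟩
    have hle : pull p Y N ≤ Y := Subgroup.map_subtype_le _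
    have hneY : pull p Y N ≠ Y := by
      intro h
      apply hne
      rw [Subgroup.eq_top_iff']
      intro x
      obtain ⟨y, rfl⟩ := QuotientGroup.mk'_surjective (Cfsg.pCore p ↥Y) x
      rw [mk_mem_iff_mem_pull, h]
      exact y.2
    obtain ⟨h1, h2⟩ := hK.key (pull p Y N) hnorm hle hneY
    constructor
    · intro x hx
      rw [Subgroup.mem_center_iff]
      intro z
      obtain ⟨y, rfl⟩ := QuotientGroup.mk'_surjective (Cfsg.pCore p ↥Y) x
      obtain ⟨w, rfl⟩ := QuotientGroup.mk'_surjective (Cfsg.pCore p ↥Y) z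
      have hy : (y : G) ∈ pull p Y N := (mk_mem_iff_mem_pull Y N y).mp hx
      have hc : ⁅(y : G), (w : G)⁆ ∈ opOf p Y := h2 (Subgroup.commutator_mem_commutator hy w.2)
      obtain ⟨c, hc1, hc2⟩ := hc
      have hc3 : c = ⁅y, w⁆ := by
        apply Subtype.ext
        have hc2' : (c : G) = ⁅(y : G), (w : G)⁆ := hc2
        rw [hc2']
        simp [commutatorElement_def]
      rw [hc3] at hc1
      have h3 : QuotientGroup.mk' (Cfsg.pCore p ↥Y) ⁅y, w⁆ = 1 :=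
        (QuotientGroup.eq_one_iff _).mpr hc1
      rw [map_commutatorElement, commutatorElement_eq_one_iff_commute] at h3
      exact h3.eq.symm
    · intro x hx
      obtain ⟨y, rfl⟩ := QuotientGroup.mk'_surjective (Cfsg.pCore p ↥Y) x
      have hy : (y : G) ∈ pull p Y N := (mk_mem_iff_mem_pull Y N y).mp hx
      exact (mem_push_iff Y L _).mpr ⟨y, h1 hy, rfl⟩
  · -- Tnc
    intro hT a b
    have hchar : ∀ g : G, ∀ x ∈ Subgroup.center (↥Y ⧸ Cfsg.pCore p ↥Y),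
        σ g x ∈ Subgroup.center (↥Y ⧸ Cfsg.pCore p ↥Y) := by
      intro g x hx
      rw [Subgroup.mem_center_iff] at hx ⊢
      intro z
      have h1 := hx ((σ g).symm z)
      have h2 := congrArg (σ g) h1
      rw [map_mul, map_mul, MulEquiv.apply_symm_apply] at h2
      exact h2
    have hnorm : (pull p Y (Subgroup.center (↥Y ⧸ Cfsg.pCore p ↥Y))).Normal :=
      ⟨fun n hn g => conj_mem_pull hσ _ g (hchar g) n hn⟩
    have hTC : T ≤ pull p Y (Subgroup.center (↥Y ⧸ Cfsg.pCore p ↥Y)) := by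
      intro t ht
      rw [mem_pull_iff]
      exact ⟨hK.TY ht, hT ((mem_push_iff Y T _).mpr ⟨⟨t, hK.TY ht⟩, ht, rfl⟩)⟩
    have hYC := hK.ncl _ hnorm hTC
    obtain ⟨y, rfl⟩ := QuotientGroup.mk'_surjective (Cfsg.pCore p ↥Y) a
    have hy : QuotientGroup.mk' (Cfsg.pCore p ↥Y) y ∈ Subgroup.center (↥Y ⧸ Cfsg.pCore p ↥Y) :=
      (mk_mem_iff_mem_pull Y _ y).mpr (hYC y.2)
    rw [Subgroup.mem_center_iff] at hy
    exact (hy b).symm

end Cfsg.Agent.Lib.Helper79.Iso
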